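import Cfsg.Agent.OddHalf.Known

/-!
# S4933: the dispatcher (helper892)

`R p K` is the row of the group `K` at the prime `p` (to be instantiated with `Row p K` of `H316/HT/Defs.lean`; all groups in
`Type`).  One field per (family, case); `disp` : all fields give `R p K` for every prime `p` and every non-abelian finite
simple group `K`.

* `Ab p K` : the Sylow `p`-subgroups of `K` are abelian (part (O) of the paper when `P ≠ P ∩ S`);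
* `TwoRows` : `p = 2`;  `OddRows` : `p` odd, groups of Lie type;  `OAb` : part (O), `p` odd, cross characteristic;
* `SporRows` : sporadic groups and the Tits group; `alt` : alternating groups.
-/

set_option autoImplicit false
set_option linter.unusedSectionVars false

open Cfsg Matrix

namespace Cfsg.Agent.H892.HT

/-- the Sylow `p`-subgroups are abelian -/
def Ab (p : ℕ) (K : Type) [Group K] : Prop := ∀ P : Sylow p K, IsMulCommutative P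

/-- the row `R p` on a class of simple groups given up to isomorphism -/
def SpR (R : ℕ → (K : Type) → [Group K] → Prop) (p : ℕ) (I : (K : Type) → [Group K] → Prop) : Prop :=
  ∀ (K : Type) [Group K] [Finite K] [IsSimpleGroup K], ¬ IsMulCommutative K → I K → R p K

/-- `p = 2`, groups of Lie type -/
structure TwoRows (R : ℕ → (K : Type) → [Group K] → Prop) : Prop where
  /-- box 2.own -/
  own : SpR R 2 fun K => IsLieTypeChar 2 K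
  /-- box 2.L2 -/
  psl2 : ∀ (F : Type) [Field F] [Fintype F] [IsSimpleGroup (ProjectiveSpecialLinearGroup (Fin 2) F)],
    Odd (Fintype.card F) → 4 ≤ Fintype.card F → ¬ Ab 2 (ProjectiveSpecialLinearGroup (Fin 2) F) →
    R 2 (ProjectiveSpecialLinearGroup (Fin 2) F)
  /-- box f.O.small, `p = 2` -/
  psl2_ab : ∀ (F : Type) [Field F] [Fintype F] [IsSimpleGroup (ProjectiveSpecialLinearGroup (Fin 2) F)],
    Odd (Fintype.card F) → 4 ≤ Fintype.card F → Ab 2 (ProjectiveSpecialLinearGroup (Fin 2) F) →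
    R 2 (ProjectiveSpecialLinearGroup (Fin 2) F)
  /-- box 2.L3.sd -/
  psl3_sd : ∀ (F : Type) [Field F] [Fintype F] [IsSimpleGroup (ProjectiveSpecialLinearGroup (Fin 3) F)],
    Fintype.card F % 4 = 3 → R 2 (ProjectiveSpecialLinearGroup (Fin 3) F)
  /-- box 2.L3.wr -/
  psl3_wr : ∀ (F : Type) [Field F] [Fintype F] [IsSimpleGroup (ProjectiveSpecialLinearGroup (Fin 3) F)],
    Fintype.card F % 4 = 1 → R 2 (ProjectiveSpecialLinearGroup (Fin 3) F)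
  /-- box 2.U3.sd -/
  psu3_sd : ∀ (F : Type) [Field F] [Fintype F] (q : ℕ) [IsSimpleGroup (PSU 3 F q)],
    Fintype.card F = q ^ 2 → q % 4 = 1 → R 2 (PSU 3 F q)
  /-- box 2.U3.wr -/
  psu3_wr : ∀ (F : Type) [Field F] [Fintype F] (q : ℕ) [IsSimpleGroup (PSU 3 F q)],
    Fintype.card F = q ^ 2 → q % 4 = 3 → R 2 (PSU 3 F q)
  /-- box 2.lin4 -/
  psl4 : ∀ (F : Type) [Field F] [Fintype F] [IsSimpleGroup (ProjectiveSpecialLinearGroup (Fin 4) F)],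
    Odd (Fintype.card F) → R 2 (ProjectiveSpecialLinearGroup (Fin 4) F)
  /-- box 2.lin4 -/
  psu4 : ∀ (F : Type) [Field F] [Fintype F] (q : ℕ) [IsSimpleGroup (PSU 4 F q)],
    Fintype.card F = q ^ 2 → Odd q → R 2 (PSU 4 F q)
  /-- box 2.lin5 -/
  psl5 : ∀ (F : Type) [Field F] [Fintype F] (n : ℕ) [IsSimpleGroup (ProjectiveSpecialLinearGroup (Fin n) F)],
    5 ≤ n → Odd (Fintype.card F) → R 2 (ProjectiveSpecialLinearGroup (Fin n) F)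
  /-- box 2.lin5 -/
  psu5 : ∀ (F : Type) [Field F] [Fintype F] (n q : ℕ) [IsSimpleGroup (PSU n F q)],
    5 ≤ n → Fintype.card F = q ^ 2 → Odd q → R 2 (PSU n F q)
  /-- box 2.lin5 -/
  psp6 : ∀ (F : Type) [Field F] [Fintype F] (m : ℕ) [IsSimpleGroup (PSp m F)],
    3 ≤ m → Odd (Fintype.card F) → R 2 (PSp m F)
  /-- box 2.sp4 -/
  psp4 : ∀ (F : Type) [Field F] [Fintype F] [IsSimpleGroup (PSp 2 F)], Odd (Fintype.card F) → R 2 (PSp 2 F)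
  /-- box 2.om -/
  oodd : ∀ (F : Type) [Field F] [Fintype F] (m : ℕ) [IsSimpleGroup (POmega F (quadFormOdd m F))],
    3 ≤ m → Odd (Fintype.card F) → R 2 (POmega F (quadFormOdd m F))
  /-- box 2.om -/
  oplus : ∀ (F : Type) [Field F] [Fintype F] (m : ℕ) [IsSimpleGroup (POmega F (quadFormPlus m F))],
    4 ≤ m → Odd (Fintype.card F) → R 2 (POmega F (quadFormPlus m F))
  /-- box 2.om -/
  ominus : ∀ (F : Type) [Field F] [Fintype F] (m : ℕ) (a b : F) [IsSimpleGroup (POmega F (quadFormMinus (m - 1) F a b))],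
    4 ≤ m → (∀ z₁ z₂ : F, z₁ ^ 2 + a * z₁ * z₂ + b * z₂ ^ 2 = 0 → z₁ = 0 ∧ z₂ = 0) → Odd (Fintype.card F) →
    R 2 (POmega F (quadFormMinus (m - 1) F a b))
  /-- box 2.g2 -/
  g2 : ∀ (F : Type) [Field F] [Fintype F] [IsSimpleGroup (Lie.chevG2.group F)], Odd (Fintype.card F) →
    R 2 (Lie.chevG2.group F)
  /-- box 2.exc -/
  f4 : ∀ (F : Type) [Field F] [Fintype F] [IsSimpleGroup (Lie.chevF4.group F)], Odd (Fintype.card F) →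
    R 2 (Lie.chevF4.group F)
  e6 : ∀ (F : Type) [Field F] [Fintype F] [IsSimpleGroup (Lie.chevE6.group F)], Odd (Fintype.card F) →
    R 2 (Lie.chevE6.group F)
  e7 : ∀ (F : Type) [Field F] [Fintype F] [IsSimpleGroup (Lie.chevE7.group F)], Odd (Fintype.card F) →
    R 2 (Lie.chevE7.group F)
  e8 : ∀ (F : Type) [Field F] [Fintype F] [IsSimpleGroup (Lie.chevE8.group F)], Odd (Fintype.card F) →
    R 2 (Lie.chevE8.group F)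
  e6t : ∀ (F : Type) [Field F] [Fintype F] (q : ℕ) [IsSimpleGroup (Lie.twistedE6 F q)], IsPrimePow q →
    Fintype.card F = q ^ 2 → Odd q → R 2 (Lie.twistedE6 F q)
  /-- box 2.d4t -/
  d4t : ∀ (F : Type) [Field F] [Fintype F] (q : ℕ) [IsSimpleGroup (Lie.twistedD4 F q)], IsPrimePow q →
    Fintype.card F = q ^ 3 → Odd q → R 2 (Lie.twistedD4 F q)
  /-- box 2.ree -/
  ree : SpR R 2 fun K => Lie.IsoRee K

/-- `p` odd, groups of Lie type: own characteristic, and cross characteristic with non-abelian `P ∩ S` -/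
structure OddRows (R : ℕ → (K : Type) → [Group K] → Prop) : Prop where
  /-- box o.own -/
  own : ∀ (p : ℕ) [Fact p.Prime], p ≠ 2 → SpR R p fun K => IsLieTypeChar p K
  /-- box o.psl.e2 -/
  psl_e2 : ∀ (p : ℕ) [Fact p.Prime] (F : Type) [Field F] [Fintype F] (n : ℕ)
    [IsSimpleGroup (ProjectiveSpecialLinearGroup (Fin n) F)], p ≠ 2 → 2 ≤ n → ¬ p ∣ Fintype.card F →
    ¬ p ∣ Fintype.card F - 1 → ¬ Ab p (ProjectiveSpecialLinearGroup (Fin n) F) →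
    R p (ProjectiveSpecialLinearGroup (Fin n) F)
  /-- box o.psl.e1 -/
  psl_e1 : ∀ (p : ℕ) [Fact p.Prime] (F : Type) [Field F] [Fintype F] (n : ℕ)
    [IsSimpleGroup (ProjectiveSpecialLinearGroup (Fin n) F)], p ≠ 2 → 2 ≤ n → ¬ p ∣ Fintype.card F →
    p ∣ Fintype.card F - 1 → ¬ p ∣ n → ¬ Ab p (ProjectiveSpecialLinearGroup (Fin n) F) →
    R p (ProjectiveSpecialLinearGroup (Fin n) F)
  /-- box o.diag -/
  psl_diag : ∀ (p : ℕ) [Fact p.Prime] (F : Type) [Field F] [Fintype F] (n : ℕ)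
    [IsSimpleGroup (ProjectiveSpecialLinearGroup (Fin n) F)], p ≠ 2 → 2 ≤ n → ¬ p ∣ Fintype.card F →
    p ∣ Fintype.card F - 1 → p ∣ n → ¬ Ab p (ProjectiveSpecialLinearGroup (Fin n) F) →
    R p (ProjectiveSpecialLinearGroup (Fin n) F)
  /-- box o.psu.e2 -/
  psu_e2 : ∀ (p : ℕ) [Fact p.Prime] (F : Type) [Field F] [Fintype F] (n q : ℕ) [IsSimpleGroup (PSU n F q)], p ≠ 2 →
    3 ≤ n → Fintype.card F = q ^ 2 → ¬ p ∣ q → ¬ p ∣ q + 1 → ¬ Ab p (PSU n F q) → R p (PSU n F q)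
  /-- box o.psu.e1 -/
  psu_e1 : ∀ (p : ℕ) [Fact p.Prime] (F : Type) [Field F] [Fintype F] (n q : ℕ) [IsSimpleGroup (PSU n F q)], p ≠ 2 →
    3 ≤ n → Fintype.card F = q ^ 2 → ¬ p ∣ q → p ∣ q + 1 → ¬ p ∣ n → ¬ Ab p (PSU n F q) → R p (PSU n F q)
  /-- box o.diag -/
  psu_diag : ∀ (p : ℕ) [Fact p.Prime] (F : Type) [Field F] [Fintype F] (n q : ℕ) [IsSimpleGroup (PSU n F q)], p ≠ 2 →
    3 ≤ n → Fintype.card F = q ^ 2 → ¬ p ∣ q → p ∣ q + 1 → p ∣ n → ¬ Ab p (PSU n F q) → R p (PSU n F q)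
  /-- box o.psp -/
  psp : ∀ (p : ℕ) [Fact p.Prime] (F : Type) [Field F] [Fintype F] (m : ℕ) [IsSimpleGroup (PSp m F)], p ≠ 2 → 2 ≤ m →
    ¬ p ∣ Fintype.card F → ¬ Ab p (PSp m F) → R p (PSp m F)
  /-- box o.oodd -/
  oodd : ∀ (p : ℕ) [Fact p.Prime] (F : Type) [Field F] [Fintype F] (m : ℕ)
    [IsSimpleGroup (POmega F (quadFormOdd m F))], p ≠ 2 → 3 ≤ m → Odd (Fintype.card F) → ¬ p ∣ Fintype.card F →
    ¬ Ab p (POmega F (quadFormOdd m F)) → R p (POmega F (quadFormOdd m F))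
  /-- box o.oplus -/
  oplus : ∀ (p : ℕ) [Fact p.Prime] (F : Type) [Field F] [Fintype F] (m : ℕ)
    [IsSimpleGroup (POmega F (quadFormPlus m F))], p ≠ 2 → 4 ≤ m → ¬ p ∣ Fintype.card F →
    ¬ Ab p (POmega F (quadFormPlus m F)) → R p (POmega F (quadFormPlus m F))
  /-- box o.ominus -/
  ominus : ∀ (p : ℕ) [Fact p.Prime] (F : Type) [Field F] [Fintype F] (m : ℕ) (a b : F)
    [IsSimpleGroup (POmega F (quadFormMinus (m - 1) F a b))], p ≠ 2 → 4 ≤ m →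
    (∀ z₁ z₂ : F, z₁ ^ 2 + a * z₁ * z₂ + b * z₂ ^ 2 = 0 → z₁ = 0 ∧ z₂ = 0) → ¬ p ∣ Fintype.card F →
    ¬ Ab p (POmega F (quadFormMinus (m - 1) F a b)) → R p (POmega F (quadFormMinus (m - 1) F a b))
  /-- box o.exc.g2 -/
  g2 : ∀ (p : ℕ) [Fact p.Prime] (F : Type) [Field F] [Fintype F] [IsSimpleGroup (Lie.chevG2.group F)], p ≠ 2 →
    ¬ p ∣ Fintype.card F → ¬ Ab p (Lie.chevG2.group F) → R p (Lie.chevG2.group F)
  /-- box o.exc.f4 -/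
  f4 : ∀ (p : ℕ) [Fact p.Prime] (F : Type) [Field F] [Fintype F] [IsSimpleGroup (Lie.chevF4.group F)], p ≠ 2 →
    ¬ p ∣ Fintype.card F → ¬ Ab p (Lie.chevF4.group F) → R p (Lie.chevF4.group F)
  /-- box o.exc.e6 -/
  e6 : ∀ (p : ℕ) [Fact p.Prime] (F : Type) [Field F] [Fintype F] [IsSimpleGroup (Lie.chevE6.group F)], p ≠ 2 →
    ¬ p ∣ Fintype.card F → ¬ Ab p (Lie.chevE6.group F) → R p (Lie.chevE6.group F)
  /-- box o.exc.e7 -/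
  e7 : ∀ (p : ℕ) [Fact p.Prime] (F : Type) [Field F] [Fintype F] [IsSimpleGroup (Lie.chevE7.group F)], p ≠ 2 →
    ¬ p ∣ Fintype.card F → ¬ Ab p (Lie.chevE7.group F) → R p (Lie.chevE7.group F)
  /-- box o.exc.e8 -/
  e8 : ∀ (p : ℕ) [Fact p.Prime] (F : Type) [Field F] [Fintype F] [IsSimpleGroup (Lie.chevE8.group F)], p ≠ 2 →
    ¬ p ∣ Fintype.card F → ¬ Ab p (Lie.chevE8.group F) → R p (Lie.chevE8.group F)
  /-- box o.exc.e6t -/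
  e6t : ∀ (p : ℕ) [Fact p.Prime] (F : Type) [Field F] [Fintype F] (q : ℕ) [IsSimpleGroup (Lie.twistedE6 F q)], p ≠ 2 →
    IsPrimePow q → Fintype.card F = q ^ 2 → ¬ p ∣ q → ¬ Ab p (Lie.twistedE6 F q) → R p (Lie.twistedE6 F q)
  /-- box o.exc.d4t -/
  d4t : ∀ (p : ℕ) [Fact p.Prime] (F : Type) [Field F] [Fintype F] (q : ℕ) [IsSimpleGroup (Lie.twistedD4 F q)], p ≠ 2 →
    IsPrimePow q → Fintype.card F = q ^ 3 → ¬ p ∣ q → ¬ Ab p (Lie.twistedD4 F q) → R p (Lie.twistedD4 F q)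
  /-- box o.exc.f4t -/
  f4t : ∀ (p : ℕ) [Fact p.Prime], p ≠ 2 → SpR R p fun K => Lie.Iso2F4 K ∧ ¬ Ab p K
  /-- box o.ree (Suzuki groups) -/
  sz : ∀ (p : ℕ) [Fact p.Prime], p ≠ 2 → SpR R p fun K => Lie.IsoSuzuki K
  /-- box o.ree (Ree groups) -/
  ree : ∀ (p : ℕ) [Fact p.Prime], p ≠ 2 → p ≠ 3 → SpR R p fun K => Lie.IsoRee K

/-- part (O): `p` odd, cross characteristic, `P ∩ S` abelian -/
structure OAb (R : ℕ → (K : Type) → [Group K] → Prop) : Prop where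
  /-- box f.O.cl -/
  psl : ∀ (p : ℕ) [Fact p.Prime] (F : Type) [Field F] [Fintype F] (n : ℕ)
    [IsSimpleGroup (ProjectiveSpecialLinearGroup (Fin n) F)], p ≠ 2 → 2 ≤ n → ¬ p ∣ Fintype.card F →
    Ab p (ProjectiveSpecialLinearGroup (Fin n) F) → R p (ProjectiveSpecialLinearGroup (Fin n) F)
  psu : ∀ (p : ℕ) [Fact p.Prime] (F : Type) [Field F] [Fintype F] (n q : ℕ) [IsSimpleGroup (PSU n F q)], p ≠ 2 →
    3 ≤ n → Fintype.card F = q ^ 2 → ¬ p ∣ q → Ab p (PSU n F q) → R p (PSU n F q)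
  psp : ∀ (p : ℕ) [Fact p.Prime] (F : Type) [Field F] [Fintype F] (m : ℕ) [IsSimpleGroup (PSp m F)], p ≠ 2 → 2 ≤ m →
    ¬ p ∣ Fintype.card F → Ab p (PSp m F) → R p (PSp m F)
  oodd : ∀ (p : ℕ) [Fact p.Prime] (F : Type) [Field F] [Fintype F] (m : ℕ)
    [IsSimpleGroup (POmega F (quadFormOdd m F))], p ≠ 2 → 3 ≤ m → Odd (Fintype.card F) → ¬ p ∣ Fintype.card F →
    Ab p (POmega F (quadFormOdd m F)) → R p (POmega F (quadFormOdd m F))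
  oplus : ∀ (p : ℕ) [Fact p.Prime] (F : Type) [Field F] [Fintype F] (m : ℕ)
    [IsSimpleGroup (POmega F (quadFormPlus m F))], p ≠ 2 → 4 ≤ m → ¬ p ∣ Fintype.card F →
    Ab p (POmega F (quadFormPlus m F)) → R p (POmega F (quadFormPlus m F))
  ominus : ∀ (p : ℕ) [Fact p.Prime] (F : Type) [Field F] [Fintype F] (m : ℕ) (a b : F)
    [IsSimpleGroup (POmega F (quadFormMinus (m - 1) F a b))], p ≠ 2 → 4 ≤ m →
    (∀ z₁ z₂ : F, z₁ ^ 2 + a * z₁ * z₂ + b * z₂ ^ 2 = 0 → z₁ = 0 ∧ z₂ = 0) → ¬ p ∣ Fintype.card F →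
    Ab p (POmega F (quadFormMinus (m - 1) F a b)) → R p (POmega F (quadFormMinus (m - 1) F a b))
  /-- box f.O.exc -/
  g2 : ∀ (p : ℕ) [Fact p.Prime] (F : Type) [Field F] [Fintype F] [IsSimpleGroup (Lie.chevG2.group F)], p ≠ 2 →
    ¬ p ∣ Fintype.card F → Ab p (Lie.chevG2.group F) → R p (Lie.chevG2.group F)
  f4 : ∀ (p : ℕ) [Fact p.Prime] (F : Type) [Field F] [Fintype F] [IsSimpleGroup (Lie.chevF4.group F)], p ≠ 2 →
    ¬ p ∣ Fintype.card F → Ab p (Lie.chevF4.group F) → R p (Lie.chevF4.group F)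
  e6 : ∀ (p : ℕ) [Fact p.Prime] (F : Type) [Field F] [Fintype F] [IsSimpleGroup (Lie.chevE6.group F)], p ≠ 2 →
    ¬ p ∣ Fintype.card F → Ab p (Lie.chevE6.group F) → R p (Lie.chevE6.group F)
  e7 : ∀ (p : ℕ) [Fact p.Prime] (F : Type) [Field F] [Fintype F] [IsSimpleGroup (Lie.chevE7.group F)], p ≠ 2 →
    ¬ p ∣ Fintype.card F → Ab p (Lie.chevE7.group F) → R p (Lie.chevE7.group F)
  e8 : ∀ (p : ℕ) [Fact p.Prime] (F : Type) [Field F] [Fintype F] [IsSimpleGroup (Lie.chevE8.group F)], p ≠ 2 →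
    ¬ p ∣ Fintype.card F → Ab p (Lie.chevE8.group F) → R p (Lie.chevE8.group F)
  e6t : ∀ (p : ℕ) [Fact p.Prime] (F : Type) [Field F] [Fintype F] (q : ℕ) [IsSimpleGroup (Lie.twistedE6 F q)], p ≠ 2 →
    IsPrimePow q → Fintype.card F = q ^ 2 → ¬ p ∣ q → Ab p (Lie.twistedE6 F q) → R p (Lie.twistedE6 F q)
  d4t : ∀ (p : ℕ) [Fact p.Prime] (F : Type) [Field F] [Fintype F] (q : ℕ) [IsSimpleGroup (Lie.twistedD4 F q)], p ≠ 2 →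
    IsPrimePow q → Fintype.card F = q ^ 3 → ¬ p ∣ q → Ab p (Lie.twistedD4 F q) → R p (Lie.twistedD4 F q)
  f4t : ∀ (p : ℕ) [Fact p.Prime], p ≠ 2 → SpR R p fun K => Lie.Iso2F4 K ∧ Ab p K

/-- the pairs (sporadic group or Tits group, prime) with abelian Sylow `p`-subgroups (box s.rest) -/
def RestPair (p : ℕ) (K : Type) [Group K] : Prop :=
  (Spor.IsoM11 K ∧ p ≠ 2) ∨ (Spor.IsoM12 K ∧ p ≠ 2 ∧ p ≠ 3) ∨ (Spor.IsoM22 K ∧ p ≠ 2) ∨ (Spor.IsoM23 K ∧ p ≠ 2) ∨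
  (Spor.IsoM24 K ∧ p ≠ 2 ∧ p ≠ 3) ∨ Spor.IsoJ1 K ∨ (Spor.IsoJ2 K ∧ p ≠ 2 ∧ p ≠ 3) ∨ (Spor.IsoJ3 K ∧ p ≠ 2 ∧ p ≠ 3) ∨
  (Spor.IsoJ4 K ∧ p ≠ 2 ∧ p ≠ 3 ∧ p ≠ 11) ∨ (Spor.IsoCo1 K ∧ p ≠ 2 ∧ p ≠ 3 ∧ p ≠ 5) ∨
  (Spor.IsoCo2 K ∧ p ≠ 2 ∧ p ≠ 3 ∧ p ≠ 5) ∨ (Spor.IsoCo3 K ∧ p ≠ 2 ∧ p ≠ 3 ∧ p ≠ 5) ∨
  (Spor.IsoMcL K ∧ p ≠ 2 ∧ p ≠ 3 ∧ p ≠ 5) ∨ (Spor.IsoHS K ∧ p ≠ 2 ∧ p ≠ 5) ∨ (Spor.IsoSuz K ∧ p ≠ 2 ∧ p ≠ 3) ∨
  (Spor.IsoHe K ∧ p ≠ 2 ∧ p ≠ 3 ∧ p ≠ 7) ∨ (Spor.IsoRu K ∧ p ≠ 2 ∧ p ≠ 3 ∧ p ≠ 5) ∨ (Spor.IsoON K ∧ p ≠ 2 ∧ p ≠ 7) ∨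
  (Spor.IsoLy K ∧ p ≠ 2 ∧ p ≠ 3 ∧ p ≠ 5) ∨ (Spor.IsoFi22 K ∧ p ≠ 2 ∧ p ≠ 3) ∨ (Spor.IsoFi23 K ∧ p ≠ 2 ∧ p ≠ 3) ∨
  (Spor.IsoFi24' K ∧ p ≠ 2 ∧ p ≠ 3 ∧ p ≠ 7) ∨ (Spor.IsoHN K ∧ p ≠ 2 ∧ p ≠ 3 ∧ p ≠ 5) ∨
  (Spor.IsoTh K ∧ p ≠ 2 ∧ p ≠ 3 ∧ p ≠ 5) ∨ (Spor.IsoB K ∧ p ≠ 2 ∧ p ≠ 3 ∧ p ≠ 5) ∨
  (Spor.IsoM K ∧ p ≠ 2 ∧ p ≠ 3 ∧ p ≠ 5 ∧ p ≠ 7 ∧ p ≠ 13) ∨ (Lie.IsoTits K ∧ p ≠ 2 ∧ p ≠ 3)

/-- the sporadic groups and the Tits group; box `s.X.p` is the field `x_p` -/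
structure SporRows (R : ℕ → (K : Type) → [Group K] → Prop) : Prop where
  m11_2 : SpR R 2 fun K => Spor.IsoM11 K
  m12_2 : SpR R 2 fun K => Spor.IsoM12 K
  m12_3 : SpR R 3 fun K => Spor.IsoM12 K
  m22_2 : SpR R 2 fun K => Spor.IsoM22 K
  m23_2 : SpR R 2 fun K => Spor.IsoM23 K
  m24_2 : SpR R 2 fun K => Spor.IsoM24 K
  m24_3 : SpR R 3 fun K => Spor.IsoM24 K
  j2_2 : SpR R 2 fun K => Spor.IsoJ2 K
  j2_3 : SpR R 3 fun K => Spor.IsoJ2 K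
  j3_2 : SpR R 2 fun K => Spor.IsoJ3 K
  j3_3 : SpR R 3 fun K => Spor.IsoJ3 K
  j4_2 : SpR R 2 fun K => Spor.IsoJ4 K
  j4_3 : SpR R 3 fun K => Spor.IsoJ4 K
  j4_11 : SpR R 11 fun K => Spor.IsoJ4 K
  co1_2 : SpR R 2 fun K => Spor.IsoCo1 K
  co1_3 : SpR R 3 fun K => Spor.IsoCo1 K
  co1_5 : SpR R 5 fun K => Spor.IsoCo1 K
  co2_2 : SpR R 2 fun K => Spor.IsoCo2 K
  co2_3 : SpR R 3 fun K => Spor.IsoCo2 K
  co2_5 : SpR R 5 fun K => Spor.IsoCo2 K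
  co3_2 : SpR R 2 fun K => Spor.IsoCo3 K
  co3_3 : SpR R 3 fun K => Spor.IsoCo3 K
  co3_5 : SpR R 5 fun K => Spor.IsoCo3 K
  mcl_2 : SpR R 2 fun K => Spor.IsoMcL K
  mcl_3 : SpR R 3 fun K => Spor.IsoMcL K
  mcl_5 : SpR R 5 fun K => Spor.IsoMcL K
  hs_2 : SpR R 2 fun K => Spor.IsoHS K
  hs_5 : SpR R 5 fun K => Spor.IsoHS K
  suz_2 : SpR R 2 fun K => Spor.IsoSuz K
  suz_3 : SpR R 3 fun K => Spor.IsoSuz K
  he_2 : SpR R 2 fun K => Spor.IsoHe K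
  he_3 : SpR R 3 fun K => Spor.IsoHe K
  he_7 : SpR R 7 fun K => Spor.IsoHe K
  ru_2 : SpR R 2 fun K => Spor.IsoRu K
  ru_3 : SpR R 3 fun K => Spor.IsoRu K
  ru_5 : SpR R 5 fun K => Spor.IsoRu K
  on_2 : SpR R 2 fun K => Spor.IsoON K
  on_7 : SpR R 7 fun K => Spor.IsoON K
  ly_2 : SpR R 2 fun K => Spor.IsoLy K
  ly_3 : SpR R 3 fun K => Spor.IsoLy K
  ly_5 : SpR R 5 fun K => Spor.IsoLy K
  fi22_2 : SpR R 2 fun K => Spor.IsoFi22 K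
  fi22_3 : SpR R 3 fun K => Spor.IsoFi22 K
  fi23_2 : SpR R 2 fun K => Spor.IsoFi23 K
  fi23_3 : SpR R 3 fun K => Spor.IsoFi23 K
  fi24_2 : SpR R 2 fun K => Spor.IsoFi24' K
  fi24_3 : SpR R 3 fun K => Spor.IsoFi24' K
  fi24_7 : SpR R 7 fun K => Spor.IsoFi24' K
  hn_2 : SpR R 2 fun K => Spor.IsoHN K
  hn_3 : SpR R 3 fun K => Spor.IsoHN K
  hn_5 : SpR R 5 fun K => Spor.IsoHN K
  th_2 : SpR R 2 fun K => Spor.IsoTh K
  th_3 : SpR R 3 fun K => Spor.IsoTh K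
  th_5 : SpR R 5 fun K => Spor.IsoTh K
  b_2 : SpR R 2 fun K => Spor.IsoB K
  b_3 : SpR R 3 fun K => Spor.IsoB K
  b_5 : SpR R 5 fun K => Spor.IsoB K
  m_2 : SpR R 2 fun K => Spor.IsoM K
  m_3 : SpR R 3 fun K => Spor.IsoM K
  m_5 : SpR R 5 fun K => Spor.IsoM K
  m_7 : SpR R 7 fun K => Spor.IsoM K
  m_13 : SpR R 13 fun K => Spor.IsoM K
  tits_2 : SpR R 2 fun K => Lie.IsoTits K
  tits_3 : SpR R 3 fun K => Lie.IsoTits K
  /-- box s.rest -/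
  rest : ∀ (p : ℕ) [Fact p.Prime], SpR R p fun K => RestPair p K

/-- all rows -/
structure AllRows (R : ℕ → (K : Type) → [Group K] → Prop) : Prop where
  two : TwoRows R
  odd : OddRows R
  oab : OAb R
  /-- boxes 2.alt, o.alt -/
  alt : ∀ (p : ℕ) [Fact p.Prime] (n : ℕ), 5 ≤ n → R p ↥(alternatingGroup (Fin n))
  spor : SporRows R

end Cfsg.Agent.H892.HT
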