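import Cfsg.Agent.H892.HT.Disp

/-!
# S4933: the dispatcher, theorem (helper892)
-/

set_option autoImplicit false
set_option linter.unusedSectionVars false

open Cfsg Matrix

namespace Cfsg.Agent.H892.HT

open Cfsg.Agent.OddHalf.Known

section

variable {R : ℕ → (K : Type) → [Group K] → Prop}

/-- `R p` is invariant under isomorphisms -/
def Tr (R : ℕ → (K : Type) → [Group K] → Prop) : Prop :=
  ∀ (p : ℕ) (K L : Type) [Group K] [Group L], (K ≃* L) → R p K → R p L

theorem simple_of {K L : Type} [Group K] [Group L] [IsSimpleGroup K] (e : K ≃* L) : IsSimpleGroup L :=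
  (MulEquiv.isSimpleGroup_congr e).1 inferInstance

theorem not_dvd_card {F : Type} [Field F] [Fintype F] {p r : ℕ} (hp : p.Prime) [CharP F r] (hr : r.Prime) (hpr : p ≠ r) :
    ¬ p ∣ Fintype.card F := by
  intro h
  have : Fact r.Prime := ⟨hr⟩
  obtain ⟨n, -, hn⟩ := FiniteField.card F r
  rw [hn] at h
  exact hpr ((Nat.prime_dvd_prime_iff_eq hp hr).1 (hp.dvd_of_dvd_pow h))

theorem odd_card {F : Type} [Field F] [Fintype F] {r : ℕ} [CharP F r] (hr : r.Prime) (hr2 : 2 ≠ r) :
    Odd (Fintype.card F) := by
  rcases Nat.even_or_odd (Fintype.card F) with h | h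
  · exact absurd h.two_dvd (not_dvd_card Nat.prime_two hr hr2)
  · exact h

theorem odd_of_pow {F : Type} [Fintype F] {q n : ℕ} (h : Fintype.card F = q ^ n) (hn : n ≠ 0)
    (ho : Odd (Fintype.card F)) : Odd q := by
  rw [h] at ho
  exact Nat.odd_iff.2 (by
    rcases Nat.even_or_odd q with h1 | h1
    · exact absurd ho (Nat.not_odd_iff_even.2 (h1.pow_of_ne_zero hn))
    · exact Nat.odd_iff.1 h1)

theorem mod_four {q : ℕ} (h : Odd q) : q % 4 = 1 ∨ q % 4 = 3 := by
  obtain ⟨k, hk⟩ := h
  omega

/-- groups of Lie type, `p = 2`, odd characteristic -/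
theorem disp_two (htr : Tr R) (A : TwoRows R) {K : Type} [Group K] [Finite K] [IsSimpleGroup K]
    (hna : ¬ IsMulCommutative K) {r : ℕ} (hr : r.Prime) (h : IsLieTypeChar r K) : R 2 K := by
  by_cases h2 : 2 = r
  · subst h2
    exact A.own K hna h
  rcases h with h | h | h | h | h | h | h | h | h | h | h
  · obtain ⟨F, i1, i2, i3, n, h1, h3, ⟨e⟩⟩ := h
    have ho := odd_card (F := F) hr h2
    have := simple_of e
    refine htr 2 _ _ e.symm ?_
    rcases Nat.lt_or_ge n 5 with hn | hn
    · interval_cases n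
      · by_cases hab : Ab 2 (ProjectiveSpecialLinearGroup (Fin 2) F)
        · exact A.psl2_ab F ho (h3 rfl) hab
        · exact A.psl2 F ho (h3 rfl) hab
      · rcases mod_four ho with h4 | h4
        · exact A.psl3_wr F h4
        · exact A.psl3_sd F h4
      · exact A.psl4 F ho
    · exact A.psl5 F n hn ho
  · obtain ⟨F, i1, i2, i3, m, h1, h3, ⟨e⟩⟩ := h
    have ho := odd_card (F := F) hr h2
    have := simple_of e
    refine htr 2 _ _ e.symm ?_
    rcases Nat.lt_or_ge m 3 with hm | hm
    · obtain rfl : m = 2 := by omega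
      exact A.psp4 F ho
    · exact A.psp6 F m hm ho
  · obtain ⟨F, i1, i2, i3, n, q, hq, h1, h3, ⟨e⟩⟩ := h
    have ho := odd_of_pow hq two_ne_zero (odd_card (F := F) hr h2)
    have := simple_of e
    refine htr 2 _ _ e.symm ?_
    rcases Nat.lt_or_ge n 5 with hn | hn
    · interval_cases n
      · rcases mod_four ho with h4 | h4
        · exact A.psu3_sd F q hq h4
        · exact A.psu3_wr F q hq h4
      · exact A.psu4 F q hq ho
    · exact A.psu5 F n q hn hq ho
  · obtain ⟨F, i1, i2, i3, m, h1, h3, ⟨e⟩⟩ := h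
    have := simple_of e
    exact htr 2 _ _ e.symm (A.oodd F m h1 h3)
  · obtain ⟨F, i1, i2, i3, m, h1, ⟨e⟩⟩ := h
    have := simple_of e
    exact htr 2 _ _ e.symm (A.oplus F m h1 (odd_card (F := F) hr h2))
  · obtain ⟨F, i1, i2, i3, m, a, b, h1, h3, ⟨e⟩⟩ := h
    have := simple_of e
    exact htr 2 _ _ e.symm (A.ominus F m a b h1 h3 (odd_card (F := F) hr h2))
  · obtain ⟨F, i1, i2, i3, h⟩ := h
    have ho := odd_card (F := F) hr h2
    rcases h with ⟨h3, ⟨e⟩⟩ | ⟨⟨e⟩⟩ | ⟨⟨e⟩⟩ | ⟨⟨e⟩⟩ | ⟨⟨e⟩⟩
    · have := simple_of e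
      exact htr 2 _ _ e.symm (A.g2 F ho)
    · have := simple_of e
      exact htr 2 _ _ e.symm (A.f4 F ho)
    · have := simple_of e
      exact htr 2 _ _ e.symm (A.e6 F ho)
    · have := simple_of e
      exact htr 2 _ _ e.symm (A.e7 F ho)
    · have := simple_of e
      exact htr 2 _ _ e.symm (A.e8 F ho)
  · obtain ⟨F, i1, i2, i3, q, hq, h⟩ := h
    have ho := odd_card (F := F) hr h2
    rcases h with ⟨h3, ⟨e⟩⟩ | ⟨h3, ⟨e⟩⟩
    · have := simple_of e
      exact htr 2 _ _ e.symm (A.e6t F q hq h3 (odd_of_pow h3 two_ne_zero ho))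
    · have := simple_of e
      exact htr 2 _ _ e.symm (A.d4t F q hq h3 (odd_of_pow h3 three_ne_zero ho))
  · exact absurd h.1.symm h2
  · exact absurd h.1.symm h2
  · exact A.ree K hna h.2

/-- groups of Lie type, `p` odd -/
theorem disp_odd (htr : Tr R) (A : OddRows R) (O : OAb R) {K : Type} [Group K] [Finite K] [IsSimpleGroup K]
    (hna : ¬ IsMulCommutative K) {p : ℕ} [hp : Fact p.Prime] (hp2 : p ≠ 2) {r : ℕ} (hr : r.Prime)
    (h : IsLieTypeChar r K) : R p K := by
  by_cases hpr : p = r
  · subst hpr
    exact A.own p hp2 K hna h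
  rcases h with h | h | h | h | h | h | h | h | h | h | h
  · obtain ⟨F, i1, i2, i3, n, h1, h3, ⟨e⟩⟩ := h
    have ho := not_dvd_card (F := F) hp.out hr hpr
    have := simple_of e
    refine htr p _ _ e.symm ?_
    by_cases hab : Ab p (ProjectiveSpecialLinearGroup (Fin n) F)
    · exact O.psl p F n hp2 h1 ho hab
    by_cases h4 : p ∣ Fintype.card F - 1
    · by_cases h5 : p ∣ n
      · exact A.psl_diag p F n hp2 h1 ho h4 h5 hab
      · exact A.psl_e1 p F n hp2 h1 ho h4 h5 hab
    · exact A.psl_e2 p F n hp2 h1 ho h4 hab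
  · obtain ⟨F, i1, i2, i3, m, h1, h3, ⟨e⟩⟩ := h
    have ho := not_dvd_card (F := F) hp.out hr hpr
    have := simple_of e
    refine htr p _ _ e.symm ?_
    by_cases hab : Ab p (PSp m F)
    · exact O.psp p F m hp2 h1 ho hab
    · exact A.psp p F m hp2 h1 ho hab
  · obtain ⟨F, i1, i2, i3, n, q, hq, h1, h3, ⟨e⟩⟩ := h
    have ho : ¬ p ∣ q := fun h => not_dvd_card (F := F) hp.out hr hpr (by rw [hq]; exact dvd_pow h two_ne_zero)
    have := simple_of e
    refine htr p _ _ e.symm ?_
    by_cases hab : Ab p (PSU n F q)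
    · exact O.psu p F n q hp2 h1 hq ho hab
    by_cases h4 : p ∣ q + 1
    · by_cases h5 : p ∣ n
      · exact A.psu_diag p F n q hp2 h1 hq ho h4 h5 hab
      · exact A.psu_e1 p F n q hp2 h1 hq ho h4 h5 hab
    · exact A.psu_e2 p F n q hp2 h1 hq ho h4 hab
  · obtain ⟨F, i1, i2, i3, m, h1, h3, ⟨e⟩⟩ := h
    have ho := not_dvd_card (F := F) hp.out hr hpr
    have := simple_of e
    refine htr p _ _ e.symm ?_
    by_cases hab : Ab p (POmega F (quadFormOdd m F))
    · exact O.oodd p F m hp2 h1 h3 ho hab
    · exact A.oodd p F m hp2 h1 h3 ho hab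
  · obtain ⟨F, i1, i2, i3, m, h1, ⟨e⟩⟩ := h
    have ho := not_dvd_card (F := F) hp.out hr hpr
    have := simple_of e
    refine htr p _ _ e.symm ?_
    by_cases hab : Ab p (POmega F (quadFormPlus m F))
    · exact O.oplus p F m hp2 h1 ho hab
    · exact A.oplus p F m hp2 h1 ho hab
  · obtain ⟨F, i1, i2, i3, m, a, b, h1, h3, ⟨e⟩⟩ := h
    have ho := not_dvd_card (F := F) hp.out hr hpr
    have := simple_of e
    refine htr p _ _ e.symm ?_
    by_cases hab : Ab p (POmega F (quadFormMinus (m - 1) F a b))
    · exact O.ominus p F m a b hp2 h1 h3 ho hab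
    · exact A.ominus p F m a b hp2 h1 h3 ho hab
  · obtain ⟨F, i1, i2, i3, h⟩ := h
    have ho := not_dvd_card (F := F) hp.out hr hpr
    rcases h with ⟨h3, ⟨e⟩⟩ | ⟨⟨e⟩⟩ | ⟨⟨e⟩⟩ | ⟨⟨e⟩⟩ | ⟨⟨e⟩⟩
    · have := simple_of e
      refine htr p _ _ e.symm ?_
      by_cases hab : Ab p (Lie.chevG2.group F)
      · exact O.g2 p F hp2 ho hab
      · exact A.g2 p F hp2 ho hab
    · have := simple_of e
      refine htr p _ _ e.symm ?_
      by_cases hab : Ab p (Lie.chevF4.group F)
      · exact O.f4 p F hp2 ho hab
      · exact A.f4 p F hp2 ho hab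
    · have := simple_of e
      refine htr p _ _ e.symm ?_
      by_cases hab : Ab p (Lie.chevE6.group F)
      · exact O.e6 p F hp2 ho hab
      · exact A.e6 p F hp2 ho hab
    · have := simple_of e
      refine htr p _ _ e.symm ?_
      by_cases hab : Ab p (Lie.chevE7.group F)
      · exact O.e7 p F hp2 ho hab
      · exact A.e7 p F hp2 ho hab
    · have := simple_of e
      refine htr p _ _ e.symm ?_
      by_cases hab : Ab p (Lie.chevE8.group F)
      · exact O.e8 p F hp2 ho hab
      · exact A.e8 p F hp2 ho hab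
  · obtain ⟨F, i1, i2, i3, q, hq, h⟩ := h
    have ho := not_dvd_card (F := F) hp.out hr hpr
    rcases h with ⟨h3, ⟨e⟩⟩ | ⟨h3, ⟨e⟩⟩
    · have hoq : ¬ p ∣ q := fun h => ho (by rw [h3]; exact dvd_pow h two_ne_zero)
      have := simple_of e
      refine htr p _ _ e.symm ?_
      by_cases hab : Ab p (Lie.twistedE6 F q)
      · exact O.e6t p F q hp2 hq h3 hoq hab
      · exact A.e6t p F q hp2 hq h3 hoq hab
    · have hoq : ¬ p ∣ q := fun h => ho (by rw [h3]; exact dvd_pow h three_ne_zero)
      have := simple_of e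
      refine htr p _ _ e.symm ?_
      by_cases hab : Ab p (Lie.twistedD4 F q)
      · exact O.d4t p F q hp2 hq h3 hoq hab
      · exact A.d4t p F q hp2 hq h3 hoq hab
  · exact A.sz p hp2 K hna h.2
  · by_cases hab : Ab p K
    · exact O.f4t p hp2 K hna ⟨h.2, hab⟩
    · exact A.f4t p hp2 K hna ⟨h.2, hab⟩
  · exact A.ree p hp2 (fun h3 => hpr (by rw [h3, h.1])) K hna h.2

/-- the sporadic groups and the Tits group -/
theorem disp_spor (S : SporRows R) {K : Type} [Group K] [Finite K] [IsSimpleGroup K] (hna : ¬ IsMulCommutative K)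
    (h : Lie.IsoTits K ∨ IsSporadicGroup K) (p : ℕ) [hp : Fact p.Prime] : R p K := by
  have key : ∀ {p : ℕ} [Fact p.Prime], RestPair p K → R p K := fun {p} _ h => S.rest p K hna h
  unfold RestPair at key
  rcases h with h | h | h | h | h | h | h | h | h | h | h | h | h | h | h | h | h | h | h | h | h | h | h | h | h | h | h
  · by_cases h2 : p = 2
    · subst h2; exact S.tits_2 K hna h
    by_cases h3 : p = 3
    · subst h3; exact S.tits_3 K hna h
    exact key (by simp only [h, h2, h3, ne_eq, not_false_eq_true, and_self, or_true])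
  · by_cases h2 : p = 2
    · subst h2; exact S.m11_2 K hna h
    exact key (Or.inl ⟨h, h2⟩)
  · by_cases h2 : p = 2
    · subst h2; exact S.m12_2 K hna h
    by_cases h3 : p = 3
    · subst h3; exact S.m12_3 K hna h
    exact key (by simp only [h, h2, h3, ne_eq, not_false_eq_true, and_self, true_or, or_true])
  · by_cases h2 : p = 2
    · subst h2; exact S.m22_2 K hna h
    exact key (by simp only [h, h2, ne_eq, not_false_eq_true, and_self, true_or, or_true])
  · by_cases h2 : p = 2
    · subst h2; exact S.m23_2 K hna h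
    exact key (by simp only [h, h2, ne_eq, not_false_eq_true, and_self, true_or, or_true])
  · by_cases h2 : p = 2
    · subst h2; exact S.m24_2 K hna h
    by_cases h3 : p = 3
    · subst h3; exact S.m24_3 K hna h
    exact key (by simp only [h, h2, h3, ne_eq, not_false_eq_true, and_self, true_or, or_true])
  · exact key (by simp only [h, true_or, or_true])
  · by_cases h2 : p = 2
    · subst h2; exact S.j2_2 K hna h
    by_cases h3 : p = 3
    · subst h3; exact S.j2_3 K hna h
    exact key (by simp only [h, h2, h3, ne_eq, not_false_eq_true, and_self, true_or, or_true])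
  · by_cases h2 : p = 2
    · subst h2; exact S.j3_2 K hna h
    by_cases h3 : p = 3
    · subst h3; exact S.j3_3 K hna h
    exact key (by simp only [h, h2, h3, ne_eq, not_false_eq_true, and_self, true_or, or_true])
  · by_cases h2 : p = 2
    · subst h2; exact S.j4_2 K hna h
    by_cases h3 : p = 3
    · subst h3; exact S.j4_3 K hna h
    by_cases h11 : p = 11
    · subst h11; exact S.j4_11 K hna h
    exact key (by simp only [h, h2, h3, h11, ne_eq, not_false_eq_true, and_self, true_or, or_true])
  · by_cases h2 : p = 2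
    · subst h2; exact S.co1_2 K hna h
    by_cases h3 : p = 3
    · subst h3; exact S.co1_3 K hna h
    by_cases h5 : p = 5
    · subst h5; exact S.co1_5 K hna h
    exact key (by simp only [h, h2, h3, h5, ne_eq, not_false_eq_true, and_self, true_or, or_true])
  · by_cases h2 : p = 2
    · subst h2; exact S.co2_2 K hna h
    by_cases h3 : p = 3
    · subst h3; exact S.co2_3 K hna h
    by_cases h5 : p = 5
    · subst h5; exact S.co2_5 K hna h
    exact key (by simp only [h, h2, h3, h5, ne_eq, not_false_eq_true, and_self, true_or, or_true])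
  · by_cases h2 : p = 2
    · subst h2; exact S.co3_2 K hna h
    by_cases h3 : p = 3
    · subst h3; exact S.co3_3 K hna h
    by_cases h5 : p = 5
    · subst h5; exact S.co3_5 K hna h
    exact key (by simp only [h, h2, h3, h5, ne_eq, not_false_eq_true, and_self, true_or, or_true])
  · by_cases h2 : p = 2
    · subst h2; exact S.mcl_2 K hna h
    by_cases h3 : p = 3
    · subst h3; exact S.mcl_3 K hna h
    by_cases h5 : p = 5
    · subst h5; exact S.mcl_5 K hna h
    exact key (by simp only [h, h2, h3, h5, ne_eq, not_false_eq_true, and_self, true_or, or_true])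
  · by_cases h2 : p = 2
    · subst h2; exact S.hs_2 K hna h
    by_cases h5 : p = 5
    · subst h5; exact S.hs_5 K hna h
    exact key (by simp only [h, h2, h5, ne_eq, not_false_eq_true, and_self, true_or, or_true])
  · by_cases h2 : p = 2
    · subst h2; exact S.suz_2 K hna h
    by_cases h3 : p = 3
    · subst h3; exact S.suz_3 K hna h
    exact key (by simp only [h, h2, h3, ne_eq, not_false_eq_true, and_self, true_or, or_true])
  · by_cases h2 : p = 2
    · subst h2; exact S.he_2 K hna h
    by_cases h3 : p = 3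
    · subst h3; exact S.he_3 K hna h
    by_cases h7 : p = 7
    · subst h7; exact S.he_7 K hna h
    exact key (by simp only [h, h2, h3, h7, ne_eq, not_false_eq_true, and_self, true_or, or_true])
  · by_cases h2 : p = 2
    · subst h2; exact S.ru_2 K hna h
    by_cases h3 : p = 3
    · subst h3; exact S.ru_3 K hna h
    by_cases h5 : p = 5
    · subst h5; exact S.ru_5 K hna h
    exact key (by simp only [h, h2, h3, h5, ne_eq, not_false_eq_true, and_self, true_or, or_true])
  · by_cases h2 : p = 2
    · subst h2; exact S.on_2 K hna h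
    by_cases h7 : p = 7
    · subst h7; exact S.on_7 K hna h
    exact key (by simp only [h, h2, h7, ne_eq, not_false_eq_true, and_self, true_or, or_true])
  · by_cases h2 : p = 2
    · subst h2; exact S.ly_2 K hna h
    by_cases h3 : p = 3
    · subst h3; exact S.ly_3 K hna h
    by_cases h5 : p = 5
    · subst h5; exact S.ly_5 K hna h
    exact key (by simp only [h, h2, h3, h5, ne_eq, not_false_eq_true, and_self, true_or, or_true])
  · by_cases h2 : p = 2
    · subst h2; exact S.fi22_2 K hna h
    by_cases h3 : p = 3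
    · subst h3; exact S.fi22_3 K hna h
    exact key (by simp only [h, h2, h3, ne_eq, not_false_eq_true, and_self, true_or, or_true])
  · by_cases h2 : p = 2
    · subst h2; exact S.fi23_2 K hna h
    by_cases h3 : p = 3
    · subst h3; exact S.fi23_3 K hna h
    exact key (by simp only [h, h2, h3, ne_eq, not_false_eq_true, and_self, true_or, or_true])
  · by_cases h2 : p = 2
    · subst h2; exact S.fi24_2 K hna h
    by_cases h3 : p = 3
    · subst h3; exact S.fi24_3 K hna h
    by_cases h7 : p = 7
    · subst h7; exact S.fi24_7 K hna h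
    exact key (by simp only [h, h2, h3, h7, ne_eq, not_false_eq_true, and_self, true_or, or_true])
  · by_cases h2 : p = 2
    · subst h2; exact S.hn_2 K hna h
    by_cases h3 : p = 3
    · subst h3; exact S.hn_3 K hna h
    by_cases h5 : p = 5
    · subst h5; exact S.hn_5 K hna h
    exact key (by simp only [h, h2, h3, h5, ne_eq, not_false_eq_true, and_self, true_or, or_true])
  · by_cases h2 : p = 2
    · subst h2; exact S.th_2 K hna h
    by_cases h3 : p = 3
    · subst h3; exact S.th_3 K hna h
    by_cases h5 : p = 5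
    · subst h5; exact S.th_5 K hna h
    exact key (by simp only [h, h2, h3, h5, ne_eq, not_false_eq_true, and_self, true_or, or_true])
  · by_cases h2 : p = 2
    · subst h2; exact S.b_2 K hna h
    by_cases h3 : p = 3
    · subst h3; exact S.b_3 K hna h
    by_cases h5 : p = 5
    · subst h5; exact S.b_5 K hna h
    exact key (by simp only [h, h2, h3, h5, ne_eq, not_false_eq_true, and_self, true_or, or_true])
  · by_cases h2 : p = 2
    · subst h2; exact S.m_2 K hna h
    by_cases h3 : p = 3
    · subst h3; exact S.m_3 K hna h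
    by_cases h5 : p = 5
    · subst h5; exact S.m_5 K hna h
    by_cases h7 : p = 7
    · subst h7; exact S.m_7 K hna h
    by_cases h13 : p = 13
    · subst h13; exact S.m_13 K hna h
    exact key (by simp only [h, h2, h3, h5, h7, h13, ne_eq, not_false_eq_true, and_self, true_or, or_true])

/-- **The dispatcher.** -/
theorem disp (htr : Tr R) (A : AllRows R) {K : Type} [Group K] [Finite K] [IsSimpleGroup K]
    (hna : ¬ IsMulCommutative K) (hK : IsKnownSimple' K) (p : ℕ) [hp : Fact p.Prime] : R p K := by
  rcases classify' hna hK with h | ⟨r, hr, h⟩ | h | h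
  · obtain ⟨n, hn, ⟨e⟩⟩ := h
    exact htr p _ _ e.symm (A.alt p n hn)
  · by_cases hp2 : p = 2
    · subst hp2
      exact disp_two htr A.two hna hr h
    · exact disp_odd htr A.odd A.oab hna hp2 hr h
  · exact disp_spor A.spor hna (Or.inl h) p
  · exact disp_spor A.spor hna (Or.inr h) p

end

end Cfsg.Agent.H892.HT
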