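import Cfsg.Agent.H892.HT.MonU

/-!
# The permutation `p`-groups on the grid `p × p` and on the grid `3 × 2` (helper892)
-/

set_option autoImplicit false
set_option linter.unusedSectionVars false

open Matrix Equiv Equiv.Perm Subgroup
open scoped commutatorElement

namespace Cfsg.Agent.H892.HT

open Cfsg Cfsg.Agent.H751

section Comm

variable {ι : Type} {C : Type} [CommGroup C]

theorem comm_inr_inl (s : Perm ι) (u : ι → C) :
    ⁅(SemidirectProduct.inr s : MonGp ι C), (SemidirectProduct.inl u : MonGp ι C)⁆ =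
      (SemidirectProduct.inl (fun i => u (s⁻¹ i) * (u i)⁻¹) : MonGp ι C) := by
  rw [commutatorElement_def, ← map_inv, ← SemidirectProduct.inl_aut, ← map_inv, ← map_mul]
  rfl

end Comm

section Grid

variable (p : ℕ) [hp : Fact p.Prime]

/-- the affine group of order `p ^ 3` on the grid -/
def P0 : Subgroup (Perm (ZMod p × ZMod p)) where
  carrier := {σ | ∃ r s t : ZMod p, ∀ a b, σ (a, b) = (a + t, b + (r * a + s))}
  mul_mem' := by
    rintro σ τ ⟨r, s, t, h⟩ ⟨r', s', t', h'⟩
    refine ⟨r + r', s' + r * t' + s, t' + t, fun a b => ?_⟩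
    rw [Perm.mul_apply, h', h]
    ext
    · simp only; ring
    · simp only; ring
  one_mem' := ⟨0, 0, 0, fun a b => by simp⟩
  inv_mem' := by
    rintro σ ⟨r, s, t, h⟩
    refine ⟨-r, r * t - s, -t, fun a b => ?_⟩
    rw [Perm.inv_eq_iff_eq, h]
    ext
    · simp only; ring
    · simp only; ring

theorem isPGroup_P0 : IsPGroup p (P0 p) := by
  rintro ⟨σ, hσ⟩
  refine ⟨2, Subtype.ext ?_⟩
  show σ ^ p ^ 2 = 1
  obtain ⟨r, s, t, h⟩ := hσ
  have h1 : ∀ (k : ℕ) (a b : ZMod p), ((σ ^ k) (a, b)).1 = a + k * t := by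
    intro k
    induction k with
    | zero => intro a b; simp
    | succ k ih =>
      intro a b
      rw [pow_succ, Perm.mul_apply, h, ih]
      push_cast
      ring
  obtain ⟨r', s', t', h'⟩ := (P0 p).pow_mem (show σ ∈ P0 p from ⟨r, s, t, h⟩) p
  have ht' : t' = 0 := by
    have h2 := h1 p 0 0
    rw [h' 0 0] at h2
    simpa using h2
  subst ht'
  have h3 : ∀ (k : ℕ) (a b : ZMod p), ((σ ^ p) ^ k) (a, b) = (a, b + k * (r' * a + s')) := by
    intro k
    induction k with
    | zero => intro a b; simp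
    | succ k ih =>
      intro a b
      rw [pow_succ, Perm.mul_apply, h', ih]
      ext
      · simp
      · push_cast
        simp only [add_zero]
        ring
  rw [pow_two, pow_mul]
  ext ⟨a, b⟩ : 1
  rw [h3]
  simp

/-- the permutations of the first summand -/
def ext1 (α β : Type) : Perm α →* Perm (α ⊕ β) := (Perm.sumCongrHom α β).comp (MonoidHom.inl (Perm α) (Perm β))

theorem ext1_inl {α β : Type} (σ : Perm α) (a : α) : ext1 α β σ (Sum.inl a) = Sum.inl (σ a) := rfl

/-- `(a, b) ↦ (a, b + a)` -/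
def sx : Perm (ZMod p × ZMod p) where
  toFun x := (x.1, x.2 + x.1)
  invFun x := (x.1, x.2 - x.1)
  left_inv x := by ext <;> simp
  right_inv x := by ext <;> simp

/-- `(a, b) ↦ (a + 1, b)` -/
def sy : Perm (ZMod p × ZMod p) where
  toFun x := (x.1 + 1, x.2)
  invFun x := (x.1 - 1, x.2)
  left_inv x := by ext <;> simp
  right_inv x := by ext <;> simp

/-- `(a, b) ↦ (a, b + 1)` -/
def sz : Perm (ZMod p × ZMod p) where
  toFun x := (x.1, x.2 + 1)
  invFun x := (x.1, x.2 - 1)
  left_inv x := by ext <;> simp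
  right_inv x := by ext <;> simp

theorem sx_mem : sx p ∈ P0 p := ⟨1, 0, 0, fun a b => by simp [sx]⟩

theorem sy_mem : sy p ∈ P0 p := ⟨0, 0, 1, fun a b => by simp [sy]⟩

theorem sz_mem : sz p ∈ P0 p := ⟨0, 1, 0, fun a b => by simp [sz]⟩

theorem comm_sx_sy : ⁅sx p, sy p⁆ = sz p := by
  rw [commutatorElement_def, mul_inv_eq_iff_eq_mul, mul_inv_eq_iff_eq_mul]
  ext ⟨a, b⟩
  · simp [sx, sy, sz]
  · simp [sx, sy, sz, add_assoc]

end Grid

end Cfsg.Agent.H892.HT
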