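import Cfsg.Agent.H751.Mono
import Cfsg.Agent.Cit.LongInst

/-!
# Monomial `p`-subgroups of `SU_n(q)`, `p ∣ q + 1` (helper892)
-/

set_option autoImplicit false
set_option linter.unusedSectionVars false

open Matrix Equiv Equiv.Perm Subgroup

namespace Cfsg.Agent.H892.HT

open Cfsg Cfsg.Agent.H751 Cfsg.Agent.Cit.LongInst Cfsg.Agent.Cit.LongModel

section Gen

variable {F : Type} [Field F] {ι : Type} [Fintype ι] [DecidableEq ι] {C : Type} [CommGroup C] (χ : C →* Fˣ)

theorem monMat_inl (u : ι → C) :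
    monMat χ (SemidirectProduct.inl u : MonGp ι C) = diagonal fun i => ((χ (u i) : Fˣ) : F) := by
  ext i j
  rw [monMat_apply, diagonal_apply]
  by_cases h : i = j
  · subst h
    rw [if_pos (show (SemidirectProduct.inl u : MonGp ι C).right i = i from rfl), if_pos rfl]
    rfl
  · rw [if_neg (show ¬ (SemidirectProduct.inl u : MonGp ι C).right j = i from fun h' => h h'.symm), if_neg h]

theorem det_inl (u : ι → C) :
    (monMat χ (SemidirectProduct.inl u : MonGp ι C)).det = ((χ (∏ i, u i) : Fˣ) : F) := by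
  rw [monMat_inl, det_diagonal, map_prod]
  push_cast
  rfl

theorem det_inr (σ : Perm ι) :
    (monMat χ (SemidirectProduct.inr σ : MonGp ι C)).det = ((sign σ : ℤ) : F) := by
  have h : monMat χ (SemidirectProduct.inr σ : MonGp ι C) = ((σ⁻¹).toPEquiv.toMatrix : Matrix ι ι F) := by
    ext i j
    rw [monMat_apply, PEquiv.toMatrix_apply]
    have e1 : ((SemidirectProduct.inr σ : MonGp ι C).right j = i) ↔ j ∈ (σ⁻¹).toPEquiv i := by
      rw [Equiv.toPEquiv_apply, Option.mem_some_iff]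
      show σ j = i ↔ σ⁻¹ i = j
      rw [Perm.inv_eq_iff_eq]
      exact eq_comm
    have e2 : ((χ ((SemidirectProduct.inr σ : MonGp ι C).left i) : Fˣ) : F) = 1 := by
      show ((χ 1 : Fˣ) : F) = 1
      rw [map_one, Units.val_one]
    rw [e2]
    simp only [e1]
  rw [h, det_permutation, sign_inv]

/-- the monomial matrices of determinant one, permutations in `P` -/
def XX (P : Subgroup (Perm ι)) : Subgroup (MonGp ι C) :=
  (P.comap SemidirectProduct.rightHom) ⊓ ((GeneralLinearGroup.det).comp (mono χ)).ker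

variable {χ}

theorem mem_XX {P : Subgroup (Perm ι)} {x : MonGp ι C} : x ∈ XX χ P ↔ x.right ∈ P ∧ (monMat χ x).det = 1 := by
  unfold XX
  rw [mem_inf, mem_comap, MonoidHom.mem_ker, Units.ext_iff]
  rfl

theorem inl_mem {P : Subgroup (Perm ι)} {u : ι → C} (h : ∏ i, u i = 1) : SemidirectProduct.inl u ∈ XX χ P := by
  refine mem_XX.2 ⟨P.one_mem, ?_⟩
  rw [det_inl, h, map_one, Units.val_one]

theorem sign_of_odd {p : ℕ} (hp : Odd p) {σ : Perm ι} {k : ℕ} (h : σ ^ p ^ k = 1) : sign σ = 1 := by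
  have h1 : sign σ ^ p ^ k = 1 := by rw [← map_pow, h, map_one]
  rcases Int.units_eq_one_or (sign σ) with h2 | h2
  · exact h2
  · rw [h2, (hp.pow).neg_one_pow] at h1
    exact absurd h1 (by decide)

theorem inr_mem {p : ℕ} (hp : Odd p) {P : Subgroup (Perm ι)} (hP : IsPGroup p P) {σ : Perm ι} (h : σ ∈ P) :
    (SemidirectProduct.inr σ : MonGp ι C) ∈ XX χ P := by
  refine mem_XX.2 ⟨h, ?_⟩
  obtain ⟨k, hk⟩ := hP ⟨σ, h⟩
  rw [det_inr, sign_of_odd hp (congrArg Subtype.val hk)]
  simp

theorem isPGroup_XX {p : ℕ} (hC : ∀ c : C, c ^ p = 1) {P : Subgroup (Perm ι)} (hP : IsPGroup p P) :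
    IsPGroup p (XX χ P) := by
  have h1 : IsPGroup p (P.comap (SemidirectProduct.rightHom : MonGp ι C →* Perm ι)) := by
    refine hP.comap_of_ker_isPGroup _ ?_
    rintro ⟨x, hx⟩
    refine ⟨1, ?_⟩
    rw [pow_one]
    apply Subtype.ext
    show x ^ p = 1
    have hx' : x.right = 1 := hx
    have h2 : x = SemidirectProduct.inl x.left := SemidirectProduct.ext rfl hx'
    rw [h2, ← map_pow]
    have h3 : x.left ^ p = 1 := by
      funext i
      exact hC _
    rw [h3, map_one]
  exact h1.to_le inf_le_left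

theorem cond_monMat [Fintype F] {q : ℕ} (hF : Fintype.card F = q ^ 2) (hχ : ∀ c, χ c ^ (q + 1) = 1)
    {P : Subgroup (Perm ι)} {x : MonGp ι C} (hx : x ∈ XX χ P) : Cond {cj hF} (monMat χ x) := by
  refine ⟨(mem_XX.1 hx).2, fun t ht => ?_⟩
  rw [Set.mem_singleton_iff.1 ht]
  ext i j
  rw [Matrix.mul_apply, Finset.sum_eq_single (x.right i)]
  · rw [transpose_apply, Matrix.map_apply, monMat_apply, monMat_apply, if_pos rfl, Matrix.one_apply]
    by_cases h : i = j
    · subst h
      rw [if_pos rfl, if_pos rfl, cj_apply]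
      have h1 := congrArg Units.val (hχ (x.left (x.right i)))
      rw [Units.val_pow_eq_pow_val, Units.val_one, pow_succ'] at h1
      exact h1
    · rw [if_neg h, if_neg (fun h' => h (x.right.injective h').symm), map_zero, mul_zero]
  · intro k _ hk
    rw [transpose_apply, monMat_apply, if_neg (fun h => hk h.symm), zero_mul]
  · intro h
    exact absurd (Finset.mem_univ _) h

/-- the monomial group in `SL_n(F)` -/
noncomputable def toSLn {n : ℕ} (P : Subgroup (Perm ι)) (e : Fin n ≃ ι) : XX χ P →* SpecialLinearGroup (Fin n) F where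
  toFun x := ⟨(monMat χ x.1).submatrix e e, by rw [det_submatrix_equiv_self]; exact (mem_XX.1 x.2).2⟩
  map_one' := by
    apply Subtype.ext
    change (monMat χ (1 : MonGp ι C)).submatrix e e = 1
    rw [monMat_one, submatrix_one_equiv]
  map_mul' x y := by
    apply Subtype.ext
    change (monMat χ (x.1 * y.1)).submatrix e e = (monMat χ x.1).submatrix e e * (monMat χ y.1).submatrix e e
    rw [submatrix_mul_equiv, monMat_mul]

/-- the monomial group in `SU_n(q)` -/
noncomputable def toSU [Fintype F] {q n : ℕ} (hF : Fintype.card F = q ^ 2) (hχ : ∀ c, χ c ^ (q + 1) = 1)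
    (P : Subgroup (Perm ι)) (e : Fin n ≃ ι) : XX χ P →* SU n F q :=
  (toSLn P e).codRestrict _ fun x => by
    rw [su_cond hF]
    exact (cond_reindex e.symm).2 (cond_monMat hF hχ x.2)

theorem toSU_val [Fintype F] {q n : ℕ} (hF : Fintype.card F = q ^ 2) (hχ : ∀ c, χ c ^ (q + 1) = 1)
    (P : Subgroup (Perm ι)) (e : Fin n ≃ ι) (x : XX χ P) :
    (toSU hF hχ P e x).1.1 = (monMat χ x.1).submatrix e e := rfl

/-- the monomial group in `PSU_n(q)` -/
noncomputable def toPSU [Fintype F] {q n : ℕ} (hF : Fintype.card F = q ^ 2) (hχ : ∀ c, χ c ^ (q + 1) = 1)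
    (P : Subgroup (Perm ι)) (e : Fin n ≃ ι) : XX χ P →* PSU n F q :=
  (QuotientGroup.mk' (center (SU n F q))).comp (toSU hF hχ P e)

theorem of_toPSU_eq_one [Fintype F] {q n : ℕ} (hF : Fintype.card F = q ^ 2) (hχ : ∀ c, χ c ^ (q + 1) = 1)
    {P : Subgroup (Perm ι)} {e : Fin n ≃ ι} (hn : 3 ≤ n) {x : XX χ P} (h : toPSU hF hχ P e x = 1) :
    ∃ c : F, ∀ i, monMat χ x.1 i i = c := by
  obtain ⟨c, hc⟩ := su_cen hF hn _ ((QuotientGroup.eq_one_iff _).1 h)
  refine ⟨c, fun i => ?_⟩
  have h1 : (monMat χ x.1).submatrix e e = c • 1 := by rw [← hc, toSU_val]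
  have h2 := congrFun (congrFun h1 (e.symm i)) (e.symm i)
  simpa using h2

end Gen

end Cfsg.Agent.H892.HT
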