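import Mathlib

/-!
# S4933: the valuation of the degree of the rank 3 character of `PSU_n(q)`, `p ∣ q + 1` (helper892)
-/

set_option autoImplicit false

namespace Cfsg.Agent.H892.HT

/-- the valuation of `f` -/
theorem val_f {p : ℕ} [hp : Fact p.Prime] (hp2 : p ≠ 2) {Q : ℤ} (hQ2 : Q ≤ -2) (hpQ : (p : ℤ) ∣ Q - 1) {f n : ℕ}
    (hf : (f : ℤ) * ((Q - 1) * (Q ^ 2 - 1)) = Q ^ 2 * (Q ^ (n - 3) - 1) * (Q ^ n - 1)) :
    emultiplicity p f = emultiplicity p n + emultiplicity p (n - 3) := by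
  have hpZ : Prime (p : ℤ) := Nat.prime_iff_prime_int.1 hp.out
  have hpQ0 : ¬ (p : ℤ) ∣ Q := by
    intro h
    have h1 := dvd_sub h hpQ
    rw [sub_sub_cancel] at h1
    have h2 : p ∣ 1 := by exact_mod_cast h1
    exact hp.out.one_lt.ne' (Nat.dvd_one.1 h2)
  have hodd : Odd p := hp.out.odd_of_ne_two hp2
  have key : ∀ j : ℕ, emultiplicity (p : ℤ) (Q ^ j - 1) = emultiplicity (p : ℤ) (Q - 1) + emultiplicity p j := by
    intro j
    have := Int.emultiplicity_pow_sub_pow hp.out hodd (x := Q) (y := 1) hpQ hpQ0 j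
    rwa [one_pow] at this
  have h2 : emultiplicity p 2 = 0 := by
    rw [emultiplicity_eq_zero]
    intro h
    exact hp2 ((Nat.prime_dvd_prime_iff_eq hp.out Nat.prime_two).1 h)
  have hQQ : emultiplicity (p : ℤ) (Q ^ 2) = 0 := by
    rw [emultiplicity_eq_zero]
    intro h
    exact hpQ0 (hpZ.dvd_of_dvd_pow h)
  have hfin : FiniteMultiplicity (p : ℤ) (Q - 1) := by
    rw [Int.finiteMultiplicity_iff]
    refine ⟨?_, by omega⟩
    simpa using hp.out.ne_one
  have h3 := congrArg (emultiplicity (p : ℤ)) hf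
  rw [emultiplicity_mul hpZ, emultiplicity_mul hpZ, emultiplicity_mul hpZ, emultiplicity_mul hpZ, key 2, key, key, h2,
    hQQ, Int.natCast_emultiplicity, hfin.emultiplicity_eq_multiplicity] at h3
  obtain ⟨e, he⟩ : ∃ e : ℕ, e = multiplicity (p : ℤ) (Q - 1) := ⟨_, rfl⟩
  rw [← he] at h3
  have h4 : emultiplicity p f + ((e + e : ℕ) : ℕ∞) = (emultiplicity p n + emultiplicity p (n - 3)) + ((e + e : ℕ) : ℕ∞) := by
    push_cast
    rw [add_zero, zero_add] at h3
    rw [h3]
    ac_rfl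
  exact (ENat.add_left_injective_of_ne_top (ENat.natCast_ne_top _)) h4

theorem factorization_eq {p f c : ℕ} (hp : p.Prime) (h : emultiplicity p f = c) : f.factorization p = c := by
  have : Fact p.Prime := ⟨hp⟩
  have h1 := multiplicity_eq_of_emultiplicity_eq_some h
  rw [Nat.factorization_def _ hp, ← h1]
  rcases Nat.eq_zero_or_pos f with rfl | hf
  · rw [emultiplicity_zero] at h
    exact absurd h (ENat.natCast_ne_top c).symm
  · exact padicValNat_def hf.ne'

end Cfsg.Agent.H892.HT
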